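import Cfsg.Agent.H849.OZ.Bad
import Cfsg.Agent.H604.OZ.Basic
import Cfsg.Agent.H340.Deg

/-!
# S4842: two rational classes of `r`-elements; rational elements from conjugacies; degrees from extraspecial
configurations (helper785)
-/

set_option autoImplicit false
set_option linter.unusedSectionVars false

open Cfsg Cfsg.Agent.Characters Cfsg.Agent.H686.CharKit Cfsg.Agent.H732.VZ Cfsg.Agent.H604.OZ

namespace Cfsg.Agent.H785.OZ8

universe u

/-! ### powers -/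

section pow

variable {G : Type*} [Group G]

theorem conj_mul_pow {y : G} {a b : ℕ} (ha : IsConj y (y ^ a)) (hb : IsConj y (y ^ b)) : IsConj y (y ^ (a * b)) := by
  obtain ⟨c, hc⟩ := isConj_iff.1 ha
  have h1 : IsConj (y ^ b) ((y ^ a) ^ b) := isConj_iff.2 ⟨c, by rw [← conj_pow, hc]⟩
  rw [pow_mul]
  exact hb.trans h1

theorem conj_of_mod {y : G} {n a m : ℕ} (hn : y ^ n = 1) (h : a % n = m % n) (ha : IsConj y (y ^ a)) :
    IsConj y (y ^ m) := by
  rw [← pow_mod_natCard_aux hn h]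
  exact ha
where
  pow_mod_natCard_aux {y : G} {n a m : ℕ} (hn : y ^ n = 1) (h : a % n = m % n) : y ^ a = y ^ m := by
    rw [← Nat.div_add_mod a n, ← Nat.div_add_mod m n, pow_add, pow_add, pow_mul, pow_mul, hn, one_pow, one_pow, h]

theorem rat8 {y : G} (hn : y ^ 8 = 1) (h3 : IsConj y (y ^ 3)) (h5 : IsConj y (y ^ 5)) {m : ℕ} (hm : ¬ 2 ∣ m) :
    IsConj (y ^ m) y := by
  refine IsConj.symm ?_
  have h7 := conj_mul_pow h3 h5
  have h1 : IsConj y (y ^ 1) := by rw [pow_one]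
  have : m % 8 = 1 ∨ m % 8 = 3 ∨ m % 8 = 5 ∨ m % 8 = 7 := by omega
  rcases this with h | h | h | h
  · exact conj_of_mod hn (by rw [h]) h1
  · exact conj_of_mod hn (by rw [h]) h3
  · exact conj_of_mod hn (by rw [h]) h5
  · exact conj_of_mod hn (by rw [h]) h7

theorem rat9 {y : G} (hn : y ^ 9 = 1) (h2 : IsConj y (y ^ 2)) {m : ℕ} (hm : ¬ 3 ∣ m) : IsConj (y ^ m) y := by
  refine IsConj.symm ?_
  have h1 : IsConj y (y ^ 1) := by rw [pow_one]
  have h4 := conj_mul_pow h2 h2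
  have h8 := conj_mul_pow h2 h4
  have h7 := conj_mul_pow h2 h8
  have h5 := conj_mul_pow h2 h7
  have : m % 9 = 1 ∨ m % 9 = 2 ∨ m % 9 = 4 ∨ m % 9 = 5 ∨ m % 9 = 7 ∨ m % 9 = 8 := by omega
  rcases this with h | h | h | h | h | h
  · exact conj_of_mod hn (by rw [h]) h1
  · exact conj_of_mod hn (by rw [h]) h2
  · exact conj_of_mod hn (by rw [h]) h4
  · exact conj_of_mod hn (by rw [h]) h5
  · exact conj_of_mod hn (by rw [h]) h7
  · exact conj_of_mod hn (by rw [h]) h8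

theorem rat5 {y : G} (hn : y ^ 5 = 1) (h2 : IsConj y (y ^ 2)) {m : ℕ} (hm : ¬ 5 ∣ m) : IsConj (y ^ m) y := by
  refine IsConj.symm ?_
  have h1 : IsConj y (y ^ 1) := by rw [pow_one]
  have h4 := conj_mul_pow h2 h2
  have h3 := conj_mul_pow h2 h4
  have : m % 5 = 1 ∨ m % 5 = 2 ∨ m % 5 = 3 ∨ m % 5 = 4 := by omega
  rcases this with h | h | h | h
  · exact conj_of_mod hn (by rw [h]) h1
  · exact conj_of_mod hn (by rw [h]) h2
  · exact conj_of_mod hn (by rw [h]) h3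
  · exact conj_of_mod hn (by rw [h]) h4

end pow

variable {G : Type u} [Group G] [Finite G] {χ : IrrCharacter G} {x : G}

/-- **Two rational classes of `r`-elements**, `r ∣ χ(1)`. -/
theorem two_prime (h : One χ x) {r : ℕ} (hr : r.Prime) (hd : r ∣ charDegree (χ : G → ℂ)) {y₁ y₂ : G}
    (ho₁ : ∃ n, orderOf y₁ = r ^ n) (ho₂ : ∃ n, orderOf y₂ = r ^ n)
    (hy₁ : ∀ m : ℕ, m.Coprime (Nat.card G) → IsConj (y₁ ^ m) y₁)
    (hy₂ : ∀ m : ℕ, m.Coprime (Nat.card G) → IsConj (y₂ ^ m) y₂) (hx₁ : ¬ IsConj x y₁) (hx₂ : ¬ IsConj x y₂)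
    (h12 : ¬ IsConj y₁ y₂) {B : ℕ} (hB₁ : cent y₁ ≤ B) (hB₂ : cent y₂ ≤ B) :
    cent x * (2 * (r ^ 2 - 1)) ≤ B := by
  obtain ⟨k₁, hk₁⟩ := H849.OZ.rat (χ := χ) hy₁
  obtain ⟨k₂, hk₂⟩ := H849.OZ.rat (χ := χ) hy₂
  have hd₁ := H849.OZ.rat_dvd_prime hr hd ho₁ hk₁
  have hd₂ := H849.OZ.rat_dvd_prime hr hd ho₂ hk₂
  have key : ∀ {y : G} {k : ℤ}, (χ : G → ℂ) y = k → ¬ IsConj x y → (r : ℤ) ∣ k → (r : ℝ) ^ 2 ≤ (k : ℝ) ^ 2 := by
    intro y k hk hx hrk
    have hk0 : k ≠ 0 := by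
      rintro rfl
      exact hx (h.uniq y (by rw [hk]; simp))
    have h3 : r ≤ k.natAbs := Nat.le_of_dvd (Int.natAbs_pos.2 hk0) (Int.natCast_dvd.1 hrk)
    have h4 : (r : ℤ) ≤ |k| := by
      rw [Int.abs_eq_natAbs]
      exact_mod_cast h3
    have h5 : (r : ℤ) ^ 2 ≤ k ^ 2 := by
      rw [← sq_abs k]
      exact pow_le_pow_left₀ (by positivity) h4 2
    exact_mod_cast h5
  have h1 := H849.OZ.excess_rat h (Finset.univ : Finset Bool) (fun b => cond b y₁ y₂) (fun b => cond b k₁ k₂)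
    (by rintro (_ | _) _; exacts [hy₂, hy₁]) (by rintro (_ | _) _; exacts [hk₂, hk₁])
    (by rintro (_ | _) _; exacts [hx₂, hx₁])
    (by
      rintro (_ | _) _ (_ | _) _ hne
      · exact absurd rfl hne
      · exact fun h' => h12 h'.symm
      · exact h12
      · exact absurd rfl hne)
  rw [Fintype.sum_bool] at h1
  simp only [cond_true, cond_false] at h1
  have hc₁ : (0 : ℝ) < cent y₁ := by
    have : 0 < cent y₁ := Nat.card_pos
    exact_mod_cast this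
  have hc₂ : (0 : ℝ) < cent y₂ := by
    have : 0 < cent y₂ := Nat.card_pos
    exact_mod_cast this
  have hB₁' : (cent y₁ : ℝ) ≤ B := by exact_mod_cast hB₁
  have hB₂' : (cent y₂ : ℝ) ≤ B := by exact_mod_cast hB₂
  have hB : (0 : ℝ) < B := hc₁.trans_le hB₁'
  have hr1 : (1 : ℝ) ≤ (r : ℝ) ^ 2 := by
    have : 1 ≤ r ^ 2 := Nat.one_le_pow _ _ hr.pos
    exact_mod_cast this
  have e₁ : ((r : ℝ) ^ 2 - 1) / B ≤ ((k₁ : ℝ) ^ 2 - 1) / cent y₁ :=
    div_le_div₀ (by linarith [key hk₁ hx₁ hd₁]) (by linarith [key hk₁ hx₁ hd₁]) hc₁ hB₁'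
  have e₂ : ((r : ℝ) ^ 2 - 1) / B ≤ ((k₂ : ℝ) ^ 2 - 1) / cent y₂ :=
    div_le_div₀ (by linarith [key hk₂ hx₂ hd₂]) (by linarith [key hk₂ hx₂ hd₂]) hc₂ hB₂'
  have h2 : (cent x : ℝ) * (((r : ℝ) ^ 2 - 1) / B + ((r : ℝ) ^ 2 - 1) / B) ≤ 1 :=
    (mul_le_mul_of_nonneg_left (add_le_add e₁ e₂) (by positivity)).trans h1
  have h3 : ((cent x * (2 * (r ^ 2 - 1)) : ℕ) : ℝ) ≤ B := by
    rw [Nat.cast_mul, Nat.cast_mul, Nat.cast_sub (Nat.one_le_pow _ _ hr.pos), Nat.cast_pow, Nat.cast_one, Nat.cast_ofNat]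
    rw [← add_div, ← mul_div_assoc, div_le_one hB] at h2
    linarith
  exact_mod_cast h3

/-- the order of `x` divides `|C(x)|` -/
theorem orderOf_dvd_cent (x : G) : orderOf x ∣ cent x := by
  have h : Subgroup.zpowers x ≤ Subgroup.centralizer ({x} : Set G) := by
    rw [Subgroup.zpowers_le, Subgroup.mem_centralizer_singleton_iff]
  rw [← Nat.card_zpowers]
  exact Subgroup.card_dvd_of_le h

/-- the number of `p`-elements bounds a centralizer from below -/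
theorem card_le_of_pSet {p M : ℕ} (hM : (H730.OZ.pSet p G).ncard = M) {x : G} (hx : ∃ k, orderOf x = p ^ k) :
    Nat.card G ≤ M * cent x := by
  classical
  have : Fintype G := Fintype.ofFinite G
  rw [← H849.OZ.card_class x]
  refine Nat.mul_le_mul_right _ ?_
  rw [← hM, ← Set.ncard_coe_finset]
  refine Set.ncard_le_ncard ?_ (Set.toFinite _)
  intro g hg
  rw [Finset.mem_coe, Finset.mem_filter] at hg
  obtain ⟨k, hk⟩ := hx
  exact ⟨k, by rw [← orderOf_eq_of_conj hg.2, hk]⟩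

/-- **The degree of a nontrivial irreducible character of a simple group with an extraspecial configuration.** -/
theorem HC_le [IsSimpleGroup G] (h : One χ x) {m : ℕ} (hc : H340.Deg.HC G m) : 2 ^ m ≤ charDegree (χ : G → ℂ) := by
  obtain ⟨n, ρ, hρ, hχ⟩ := χ.2
  have hn : charDegree (χ : G → ℂ) = n := by
    have h1 : (χ : G → ℂ) 1 = (n : ℂ) := by
      rw [← hχ, Representation.char_one]
      simp
    have h2 := charDegree_irr χ
    rw [h1] at h2
    exact_mod_cast h2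
  have hinj : Function.Injective ρ.toHomUnits := by
    rw [← MonoidHom.ker_eq_bot_iff]
    rcases IsSimpleGroup.eq_bot_or_eq_top_of_normal (MonoidHom.ker ρ.toHomUnits) inferInstance with h1 | h1
    · exact h1
    · exfalso
      have h2 : x ∈ MonoidHom.ker ρ.toHomUnits := by rw [h1]; trivial
      have h3 : ρ x = ρ 1 := by
        have h4 := congrArg (fun z : (Module.End ℂ (Fin n → ℂ))ˣ => (z : Module.End ℂ (Fin n → ℂ))) (MonoidHom.mem_ker.1 h2)
        rw [map_one]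
        exact h4
      have h5 : (χ : G → ℂ) x = (χ : G → ℂ) 1 := by
        rw [← hχ]
        show LinearMap.trace ℂ _ (ρ x) = LinearMap.trace ℂ _ (ρ 1)
        rw [h3]
      rw [h.zero, ← charDegree_irr χ] at h5
      have h6 := deg_pos χ
      have h7 : (charDegree (χ : G → ℂ) : ℂ) = 0 := h5.symm
      rw [Nat.cast_eq_zero] at h7
      omega
  rw [hn]
  refine (H340.Deg.HC.le (k := ℂ) (V := Fin n → ℂ) two_ne_zero hc ρ.toHomUnits hinj).trans_eq ?_
  simp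

end Cfsg.Agent.H785.OZ8
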