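import Cfsg.Agent.H785.OZ8.Mdl
import Cfsg.Agent.StdO8.EvenLin

/-!
# Bounds for centralizers in `Ω₈⁺(2)` (helper785)

`C` : certificates for the centralizer in `O₈⁺(2)`; `half`: an element of `Ω₈⁺(2)` fixing a nonsingular vector has a
centralizer of index two in that of `O₈⁺(2)`.
-/

set_option autoImplicit false

namespace Cfsg.Agent.H785.OZ8

open Cfsg.Agent.StdO8.Model Cfsg.Agent.StdO8.Code Cfsg.Agent.H633.Ore
open Cfsg.Agent.LieClassical.OrthCore

/-- the inclusion -/
def up (m : Om) : O8 := ⟨m, Om_le m.2⟩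

theorem up_mul (a b : Om) : up (a * b) = up a * up b := rfl

theorem up_inj {a b : Om} (h : up a = up b) : a = b :=
  Subtype.ext (congrArg (fun z : O8 => (z : V ≃ₗ[ZMod 2] V)) h)

/-- check of the matrix of a word -/
noncomputable def chkL (l : List (ℕ × ℕ)) (L : List ℕ) : Bool :=
  l.all ok && (List.range 256).all fun a => Nat.blt (ev l a) 256 && Nat.beq (linL L a) (ev l a)

theorem rp_of {l : List (ℕ × ℕ)} {L : List ℕ} (h : chkL l L = true) : M.Rp L (up (word l)) := by
  rw [chkL, Bool.and_eq_true, List.all_eq_true (l := List.range 256)] at h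
  intro y
  have h1 := h.2 (enc y.1) (List.mem_range.2 (enc_lt _))
  rw [Bool.and_eq_true] at h1
  have h2 : (((up (word l)) • y : Y) : V) = dec (ev l (enc y.1)) := by
    rw [← word_dec h.1, dec_enc]
    rfl
  show enc ((up (word l)) • y : Y).1 = linL L (enc y.1)
  rw [h2, enc_dec (by simpa using h1.1)]
  exact (Nat.eq_of_beq_eq_true h1.2).symm

/-- run of a certificate -/
noncomputable def chkE (L : List ℕ) (m : ℕ) (s : List Step) : Bool :=
  pwF L m (idL 8) fun Ls => chk 8 120 TT CC (Nat.succ m) Ls s [AM] []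

theorem card_le_O8 {g : O8} {L : List ℕ} (hL : M.Rp L g) {m : ℕ} {s : List Step} (h : chkE L m s = true) :
    Nat.card ↥(Subgroup.centralizer ({g} : Set O8)) ≤ prodB s := by
  have hfin : Finite O8 := Nat.finite_of_card_ne_zero (by rw [StdO8.CardC.card_O8]; norm_num)
  rw [chkE, pwF_eq] at h
  refine chk_sound (M := M) (r := g) (Ls := pw L m (idL M.w)) (N := Nat.succ m) (fun j hj => ?_) s
    [AM] [] _ (fun x hx => ?_) (fun A hA => ?_) (fun v hv => absurd hv List.not_mem_nil) h
  · have h1 := Mdl.Rp.pw M hL m (idL M.w) 0 (by rw [pow_zero]; exact Mdl.Rp.one M) j (Nat.le_of_lt_succ hj)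
    rwa [Nat.zero_add] at h1
  · exact ((Subgroup.mem_centralizer_iff.1 hx) _ rfl).symm
  · obtain rfl := List.mem_singleton.1 hA
    refine ⟨vm_AM, fun x _ y => ?_⟩
    show AM.testBit (12 * idx (x • y)) = true ↔ AM.testBit (12 * idx y) = true
    rw [am_bit _ (idx_lt _), am_bit _ (idx_lt _)]

theorem mem_cent {G : Type*} [Group G] {y g : G} : g ∈ Subgroup.centralizer ({y} : Set G) ↔ y * g = g * y := by
  rw [Subgroup.mem_centralizer_iff]
  exact ⟨fun h => h y rfl, fun h z hz => by rw [hz]; exact h⟩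

theorem card_le_up (y : Om) : Nat.card ↥(Subgroup.centralizer ({y} : Set Om)) ≤
    Nat.card ↥(Subgroup.centralizer ({up y} : Set O8)) := by
  have hfin : Finite O8 := Nat.finite_of_card_ne_zero (by rw [StdO8.CardC.card_O8]; norm_num)
  refine Nat.card_le_card_of_injective (fun g => ⟨up g.1, ?_⟩) fun a b h => ?_
  · rw [mem_cent, ← up_mul, mem_cent.1 g.2, up_mul]
  · exact Subtype.ext (up_inj (congrArg Subtype.val h))

/-- the reflection in a code -/
theorem half {y : Om} {n : ℕ} (hn : qn n = true) (hy : (y : V ≃ₗ[ZMod 2] V) (dec n) = dec n) :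
    2 * Nat.card ↥(Subgroup.centralizer ({y} : Set Om)) ≤ Nat.card ↥(Subgroup.centralizer ({up y} : Set O8)) := by
  have hfin : Finite O8 := Nat.finite_of_card_ne_zero (by rw [StdO8.CardC.card_O8]; norm_num)
  have hq : q (dec n) ≠ 0 := by rw [q_dec, hn]; decide
  set r : O8 := ⟨refl q (dec n) hq, refl_mem_O hq⟩ with hr
  have hry : up y * r = r * up y := by
    apply Subtype.ext
    apply LinearEquiv.ext
    intro v
    show (y : V ≃ₗ[ZMod 2] V) (refl q (dec n) hq v) = refl q (dec n) hq ((y : V ≃ₗ[ZMod 2] V) v)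
    rw [StdO8.EvenLin.refl_eq, StdO8.EvenLin.refl_eq, map_add, map_smul, hy]
    congr 2
    have h1 := O8_B (Om_le y.2) (dec n) v
    rw [hy] at h1
    exact h1.symm
  have hodd : ∀ a b : Om, up a ≠ up b * r := by
    intro a b h
    have h1 : r = up (b⁻¹ * a) := by
      rw [up_mul, h, ← mul_assoc, ← up_mul, inv_mul_cancel]
      exact (one_mul r).symm
    have h2 : refl q (dec n) hq ∈ Om := by
      have h3 := congrArg Subtype.val h1
      rw [show refl q (dec n) hq = (r : V ≃ₗ[ZMod 2] V) from rfl, h3]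
      exact (b⁻¹ * a).2
    exact StdO8.Gen.refl_notMem _ _ h2
  have hc : Nat.card (Bool × ↥(Subgroup.centralizer ({y} : Set Om))) =
      2 * Nat.card ↥(Subgroup.centralizer ({y} : Set Om)) := by
    rw [Nat.card_prod, Nat.card_eq_fintype_card, Fintype.card_bool]
  rw [← hc]
  have hmem : ∀ p : Bool × ↥(Subgroup.centralizer ({y} : Set Om)),
      (cond p.1 (up p.2.1) (up p.2.1 * r)) ∈ Subgroup.centralizer ({up y} : Set O8) := by
    rintro ⟨b, g⟩
    have h1 : up y * up g.1 = up g.1 * up y := by rw [← up_mul, mem_cent.1 g.2, up_mul]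
    cases b
    · show up g.1 * r ∈ _
      rw [mem_cent, ← mul_assoc, h1, mul_assoc, hry, mul_assoc]
    · exact mem_cent.2 h1
  refine Nat.card_le_card_of_injective (fun p => ⟨_, hmem p⟩) ?_
  rintro ⟨a, g⟩ ⟨b, g'⟩ h
  have h' : cond a (up g.1) (up g.1 * r) = cond b (up g'.1) (up g'.1 * r) := congrArg Subtype.val h
  cases a <;> cases b
  · rw [Subtype.ext (up_inj (mul_right_cancel (h' : up g.1 * r = up g'.1 * r)))]
  · exact absurd (h' : up g.1 * r = up g'.1).symm (hodd _ _)
  · exact absurd (h' : up g.1 = up g'.1 * r) (hodd _ _)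
  · rw [Subtype.ext (up_inj (h' : up g.1 = up g'.1))]

/-- the centralizer of a word -/
theorem cent_le {l : List (ℕ × ℕ)} {L : List ℕ} (hL : chkL l L = true) {m : ℕ} {s : List Step}
    (h : chkE L m s = true) : Nat.card ↥(Subgroup.centralizer ({word l} : Set Om)) ≤ prodB s :=
  (card_le_up _).trans (card_le_O8 (rp_of hL) h)

/-- the centralizer of a word fixing a nonsingular vector -/
theorem cent_le_half {l : List (ℕ × ℕ)} {L : List ℕ} (hL : chkL l L = true) {m : ℕ} {s : List Step}
    (h : chkE L m s = true) {n : ℕ} (hn : qn n = true) (hf : ev l n = n) :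
    2 * Nat.card ↥(Subgroup.centralizer ({word l} : Set Om)) ≤ prodB s := by
  refine (half hn ?_).trans (card_le_O8 (rp_of hL) h)
  have hl : l.all ok = true := by
    rw [chkL, Bool.and_eq_true] at hL
    exact hL.1
  rw [word_dec hl, hf]

end Cfsg.Agent.H785.OZ8
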